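/-
The number of generators of a linear `2`-group in odd characteristic (S4188).
-/
import Cfsg.Agent.Sw.LinDer
import Cfsg.Agent.Grp.PGroupSCN
import Cfsg.Agent.Grp.PGroupFrattini

open Subgroup Cfsg CL.Grp Module
open scoped Pointwise commutatorElement

namespace CL.Sw

universe u v
variable {F : Type*} [Field F] {V : Type*} [AddCommGroup V] [Module F V] {P : Type*} [Group P] {p : ℕ}

theorem fixV_eq_bot_of_central {ρ : Representation F P V} (hρ : ∀ g, ρ g = 1 → g = 1)
    (hirr : ∀ W : Submodule F V, (∀ x, W ≤ W.comap (ρ x)) → W = ⊥ ∨ W = ⊤) {c : P} (hc : c ∈ center P)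
    (hc1 : c ≠ 1) : fixV ρ c = ⊥ :=
  (hirr _ fun x => fixV_inv (mem_center_iff.1 hc x)).resolve_right fun h => hc1 (hρ c (by
    ext v; exact mem_fixV.1 (h ▸ Submodule.mem_top : v ∈ fixV ρ c)))

theorem exists_noncentral [Finite P] [hp : Fact p.Prime] [FiniteDimensional F V] [Nontrivial V]
    (hpF : (p : F) ≠ 0) (hP : IsPGroup p P) {ρ : Representation F P V} (hρ : ∀ g, ρ g = 1 → g = 1)
    (hirr : ∀ W : Submodule F V, (∀ x, W ≤ W.comap (ρ x)) → W = ⊥ ∨ W = ⊤) {E : Subgroup P} [E.Normal]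
    (hE : IsElementaryAbelian p E) (hEc : Nat.card E = p ^ 2) :
    ∃ z b : P, z ∈ center P ∧ z ≠ 1 ∧ z ^ p = 1 ∧ b ^ p = 1 ∧ b ∉ center P ∧ (∀ g : P, ⁅g, b⁆ ∈ zpowers z) ∧
      ∀ i : ℕ, p * finrank F (fixV ρ (z ^ i * b)) ≤ finrank F V := by
  have hcen : ∀ c ∈ center P, c ≠ 1 → fixV ρ c = ⊥ := fun c => fixV_eq_bot_of_central hρ hirr
  have hE0 : E ≠ ⊥ := by
    rintro rfl
    rw [card_bot] at hEc
    exact (Nat.one_lt_pow two_ne_zero hp.out.one_lt).ne hEc
  have := hP.isNilpotent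
  obtain ⟨⟨z, hzE, hzc⟩, hz1⟩ := (ne_bot_iff_exists_ne_one).1 (inf_center_ne_bot hE0)
  have hz1 : z ≠ 1 := fun h => hz1 (Subtype.ext h)
  have hzp : z ^ p = 1 := hE.2 z hzE
  have hzo : orderOf z = p := orderOf_eq_prime hzp hz1
  have hZn : (zpowers z).Normal := normal_of_le_center' (zpowers_le.2 hzc)
  have hlt : zpowers z < E := lt_of_le_of_ne (zpowers_le.2 hzE) (fun h => by
    rw [← h, Nat.card_zpowers, hzo] at hEc
    have := hp.out.one_lt
    nlinarith)
  obtain ⟨b, hbE, hbz, -, hbc⟩ := exists_central_mod_of_not_le hP (N := zpowers z) (M := E) hlt.not_ge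
  have hzfix : ∀ c ∈ zpowers z, c ≠ 1 → fixV ρ c = ⊥ := fun c hc => hcen c (zpowers_le.2 hzc hc)
  have hzb : Commute z b := (mem_center_iff.1 hzc b).symm
  have hpow : ∀ i : ℕ, (z ^ i * b) ^ p = 1 := fun i => hE.2 _ (mul_mem (pow_mem hzE i) hbE)
  have hbnc : b ∉ center P := by
    intro hb
    obtain ⟨v, hv⟩ := exists_ne (0 : V)
    have h1 := smul_eq_sum hzfix hz1 hzp hzb v
    rw [Finset.sum_eq_zero (fun i _ => sum_pow_eq_zero (hcen _ (mul_mem (pow_mem hzc i) hb) (fun h => hbz (by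
      rw [eq_inv_of_mul_eq_one_right h]; exact inv_mem (pow_mem (mem_zpowers z) i)))) (hpow i) v),
      smul_eq_zero] at h1
    tauto
  obtain ⟨t, ht⟩ : ∃ t : P, ⁅t, b⁆ ≠ 1 := by
    classical
    by_contra h
    push Not at h
    exact hbnc (mem_center_iff.2 fun t => commutatorElement_eq_one_iff_mul_comm.1 (h t))
  have hcz : ∀ t : P, ⁅t, b⁆ ∈ zpowers z := fun t => by rw [← commutatorElement_inv]; exact inv_mem (hbc t)
  refine ⟨z, b, hzc, hz1, hzp, hE.2 b hbE, hbnc, hcz, fun i => ?_⟩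
  exact mul_finrank_fixV_le (ρ := ρ) hpF (b := z ^ i * b) (t := t) (zpowers_le.2 hzc (hcz t))
    (fun d hd => hzfix d (zpowers_le.2 (hcz t) hd)) ht (hE.2 _ (hlt.le (hcz t))) (by
      have h1 := mem_center_iff.1 (pow_mem hzc i)
      rw [← mul_assoc t, h1 t, ← mul_assoc ⁅t, b⁆, h1 ⁅t, b⁆, commutatorElement_def]
      simp only [mul_assoc, inv_mul_cancel, mul_one])

theorem index_frattini_le_mul [Finite P] [Fact p.Prime] (hP : IsPGroup p P) (K : Subgroup P) [K.Normal] :
    (frattini P).index ≤ (frattini (P ⧸ K)).index * (frattini K).index := by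
  have h1 : (frattini P ⊔ K).index = (frattini (P ⧸ K)).index := by
    rw [← map_frattini_of_surjective_pGroup hP _ (QuotientGroup.mk'_surjective K), index_map,
      QuotientGroup.ker_mk', MonoidHom.range_eq_top.2 (QuotientGroup.mk'_surjective K), index_top, mul_one]
  have h2 : (frattini P).relIndex K ≤ (frattini K).index :=
    Nat.le_of_dvd (Nat.pos_of_ne_zero index_ne_zero_of_finite)
      (index_dvd_of_le (map_le_iff_le_comap.1 (map_subtype_frattini_le_pGroup hP K)))
  rw [← relIndex_mul_index (le_sup_left : frattini P ≤ frattini P ⊔ K), relIndex_sup_left, h1, mul_comm]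
  exact Nat.mul_le_mul_left _ h2

theorem index_le_card' {G : Type*} [Group G] [Finite G] (H : Subgroup G) : H.index ≤ Nat.card G :=
  Nat.le_of_dvd Nat.card_pos H.index_dvd_card

theorem index_frattini_le_of_isCyclic [Finite P] [hp : Fact p.Prime] (hP : IsPGroup p P) (h : IsCyclic P) :
    (frattini P).index ≤ p := by
  classical
  obtain ⟨a, ha⟩ := isCyclic_iff_exists_zpowers_eq_top.1 h
  obtain ⟨n, hn⟩ := IsPGroup.iff_card.1 (hP.to_quotient (frattini P))
  have := le_card_of_closure_eq_top hP hn {a} (by rw [← ha, zpowers_eq_closure]; simp)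
  rw [Finset.card_singleton] at this
  rw [show (frattini P).index = p ^ n from hn]
  simpa using Nat.pow_le_pow_right hp.out.pos this

/-- the inductive claim -/
def GenGood (F V : Type*) [Field F] [AddCommGroup V] [Module F V] : Prop :=
  ∀ (P : Type u) [Group P] [Finite P], IsPGroup 2 P → ∀ ρ : Representation F P V, (∀ g, ρ g = 1 → g = 1) →
    (Nat.card V = 3 → Nat.card P ≤ 2) ∧ (3 < Nat.card V → 2 * (frattini P).index ≤ Nat.card V)

theorem genGood_pair {V₁ V₂ : Type*} [AddCommGroup V₁] [Module F V₁] [AddCommGroup V₂] [Module F V₂]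
    (h₁ : GenGood.{u} F V₁) (h₂ : GenGood.{u} F V₂) {P : Type u} [Group P] [Finite P] (hP : IsPGroup 2 P)
    (ρ₁ : Representation F P V₁) (ρ₂ : Representation F P V₂) (h : ∀ g, ρ₁ g = 1 → ρ₂ g = 1 → g = 1) :
    ∃ f₁ f₂ c₁ c₂ : ℕ, (frattini P).index ≤ f₁ * f₂ ∧ Nat.card P = c₁ * c₂ ∧ f₁ ≤ c₁ ∧ f₂ ≤ c₂ ∧
      (Nat.card V₁ = 3 → c₁ ≤ 2) ∧ (3 < Nat.card V₁ → 2 * f₁ ≤ Nat.card V₁) ∧
      (Nat.card V₂ = 3 → c₂ ≤ 2) ∧ (3 < Nat.card V₂ → 2 * f₂ ≤ Nat.card V₂) := by
  have : Fact (Nat.Prime 2) := ⟨Nat.prime_two⟩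
  obtain ⟨a1, a2⟩ := h₁ (P ⧸ MonoidHom.ker ρ₁) (hP.to_quotient _) (QuotientGroup.lift _ ρ₁ le_rfl) (by
    intro x hx
    obtain ⟨y, rfl⟩ := QuotientGroup.mk_surjective x
    exact (QuotientGroup.eq_one_iff y).2 hx)
  obtain ⟨b1, b2⟩ := h₂ (MonoidHom.ker ρ₁) (hP.to_subgroup _) (ρ₂.comp (MonoidHom.ker ρ₁).subtype)
    (fun g hg => Subtype.ext (h g g.2 hg))
  exact ⟨_, _, _, _, index_frattini_le_mul hP _, card_eq_card_quotient_mul_card_subgroup _,
    index_le_card' _, index_le_card' _, a1, a2, b1, b2⟩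

theorem genGood [Finite F] (hF : Odd (Nat.card F)) (n : ℕ) :
    ∀ (V : Type v) [AddCommGroup V] [Module F V] [FiniteDimensional F V], finrank F V = n → GenGood.{u} F V := by
  have : Fact (Nat.Prime 2) := ⟨Nat.prime_two⟩
  have hq : 3 ≤ Nat.card F := by
    have := Finite.one_lt_card (α := F)
    obtain ⟨k, hk⟩ := hF
    omega
  have h2F : ((2 : ℕ) : F) ≠ 0 := by
    have := Fintype.ofFinite F
    refine natCast_ne_zero_of_not_dvd ?_
    rw [← Nat.card_eq_fintype_card]
    obtain ⟨k, hk⟩ := hF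
    omega
  have hge : ∀ m, m ≠ 0 → 3 ≤ Nat.card F ^ m := fun m hm => hq.trans (Nat.le_self_pow hm _)
  induction n using Nat.strong_induction_on with
  | _ n ih =>
  intro V _ _ _ hn P _ _ hP ρ hρ
  have hV : Nat.card V = Nat.card F ^ n := by rw [← hn]; exact Module.natCard_eq_pow_finrank
  rcases Nat.lt_trichotomy n 1 with h1 | h1 | h1
  · rw [hV, Nat.lt_one_iff.1 h1]; simp
  · subst h1
    choose c hc using fun g => (LinearMap.existsUnique_eq_smul_id_of_finrank_eq_one hn (ρ g)).exists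
    have hV1 : Nontrivial V := Module.nontrivial_of_finrank_pos (R := F) (by omega)
    obtain ⟨v, hv⟩ := exists_ne (0 : V)
    have hc' : ∀ g, ρ g v = c g • v := fun g => by rw [hc g]; rfl
    let χ : P →* F :=
      { toFun := c
        map_one' := smul_left_injective F hv (by simp [← hc'])
        map_mul' := fun a b => smul_left_injective F hv (by
          simp only
          rw [← hc', rep_mul, hc' b, map_smul, hc', smul_smul, mul_comm]) }
    have hχ : Function.Injective χ.toHomUnits := by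
      rw [injective_iff_map_eq_one]
      intro g hg
      have : c g = 1 := congrArg Units.val hg
      exact hρ g (by rw [hc g, this, one_smul]; rfl)
    have hcard := Nat.card_le_card_of_injective _ hχ
    rw [Nat.card_units] at hcard
    have := index_frattini_le_of_isCyclic hP (isCyclic_of_injective _ hχ)
    rw [hV, pow_one]
    omega
  have h9 : 9 ≤ Nat.card V := by
    rw [hV]
    exact (Nat.pow_le_pow_left hq 2).trans (Nat.pow_le_pow_right (by omega) h1)
  refine ⟨fun h => by omega, fun _ => ?_⟩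
  by_cases hirr : ∃ W : Submodule F V, W ≠ ⊥ ∧ W ≠ ⊤ ∧ ∀ x, W ≤ W.comap (ρ x)
  · obtain ⟨W, hW0, hW1, hW⟩ := hirr
    have h1 : finrank F W < n := hn ▸ Submodule.finrank_lt hW1
    have h3 : finrank F W ≠ 0 := fun h => hW0 (Submodule.finrank_eq_zero.1 h)
    have h4 := W.finrank_quotient_add_finrank
    obtain ⟨f₁, f₂, c₁, c₂, e1, -, e3, e4, e5, e6, e7, e8⟩ := genGood_pair (ih _ h1 W rfl)
      (ih _ (by omega) (V ⧸ W) rfl) hP (ρ.subrepresentation W hW) (ρ.quotient W hW) (by
        intro g e1 e2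
        obtain ⟨j, hj⟩ := hP g
        refine hρ g (end_eq_one_of_sq (m := 2 ^ j) (by rw [Nat.cast_pow]; exact pow_ne_zero _ h2F) ?_
          (by rw [← map_pow, hj, map_one]))
        ext v
        have h3 : ρ g v - v ∈ W := by
          rw [← Submodule.Quotient.eq]
          exact LinearMap.congr_fun e2 (Submodule.Quotient.mk v)
        have h4 := congrArg Subtype.val (LinearMap.congr_fun e1 ⟨_, h3⟩)
        change ρ g (ρ g v - v) = ρ g v - v at h4
        change ρ g (ρ g v - v) - (ρ g v - v) = 0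
        rw [h4, sub_self])
    have a1 : 3 ≤ Nat.card W := by rw [Module.natCard_eq_pow_finrank (K := F)]; exact hge _ h3
    have a2 : 3 ≤ Nat.card (V ⧸ W) := by rw [Module.natCard_eq_pow_finrank (K := F)]; exact hge _ (by omega)
    have a3 : Nat.card V = Nat.card W * Nat.card (V ⧸ W) := by
      rw [Module.natCard_eq_pow_finrank (K := F), Module.natCard_eq_pow_finrank (K := F) (V := W),
        Module.natCard_eq_pow_finrank (K := F) (V := V ⧸ W), ← pow_add, ← h4, add_comm]
    rw [a3]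
    refine (Nat.mul_le_mul_left 2 e1).trans ?_
    rcases a1.eq_or_lt with a1 | a1 <;> rcases a2.eq_or_lt with a2 | a2
    · have := e5 a1.symm; have := e7 a2.symm; rw [← a1, ← a2]; nlinarith
    · have := e5 a1.symm; have := e8 a2; rw [← a1]; nlinarith
    · have := e6 a1; have := e7 a2.symm; rw [← a2]; nlinarith
    · have := e6 a1; have := e8 a2; nlinarith
  have hirr' : ∀ W : Submodule F V, (∀ x, W ≤ W.comap (ρ x)) → W = ⊥ ∨ W = ⊤ := by
    intro W hW
    by_contra h
    push Not at h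
    exact hirr ⟨W, h.1, h.2, hW⟩
  have hV1 : Nontrivial V := Module.nontrivial_of_finrank_pos (R := F) (by omega)
  by_cases hE : ∀ E : Subgroup P, E.Normal → IsElementaryAbelian 2 E → Nat.card E ≠ 2 ^ 2
  · rcases isCyclic_or_dqsGen_of_forall_normal hP hE with hc | ⟨-, m, a, b, h⟩
    · have := index_frattini_le_of_isCyclic hP hc
      omega
    · rw [h.frattini_eq, ← h.commutator_eq, h.index_commutator]; omega
  push Not at hE
  obtain ⟨E, hEn, hE, hEc⟩ := hE
  obtain ⟨z, b, hzc, hz1, hz2, hb2, hbnc, hbz, hd⟩ := exists_noncentral h2F hP hρ hirr' hE hEc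
  set C := centralizer ({b} : Set P) with hC
  have hCi : C.index = 2 := by
    have h1 := relIndex_centralizer_singleton_le_card (H := ⊤) (fun g _ => hbz g)
    rw [relIndex_top_right, Nat.card_zpowers, orderOf_eq_prime hz2 hz1] at h1
    have h2 : C.index ≠ 1 := fun h => hbnc (mem_center_iff.2 fun g =>
      mem_centralizer_singleton_iff.1 (index_eq_one.1 h ▸ mem_top g : g ∈ C))
    have h3 : C.index ≠ 0 := index_ne_zero_of_finite
    change C.index ≤ 2 at h1
    omega
  have hCn : C.Normal := normal_of_index_eq_two hCi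
  have hzfix : ∀ c ∈ zpowers z, c ≠ 1 → fixV ρ c = ⊥ := fun c hc =>
    fixV_eq_bot_of_central hρ hirr' (zpowers_le.2 hzc hc)
  have hzb : Commute z b := (mem_center_iff.1 hzc b).symm
  have hsum : ∀ v : V, ∃ v₀ ∈ fixV ρ (z ^ 0 * b), ∃ v₁ ∈ fixV ρ (z ^ 1 * b), ((2 : ℕ) : F) • v = v₀ + v₁ := by
    intro v
    have hpow : ∀ i : ℕ, (z ^ i * b) ^ 2 = 1 := fun i => by
      rw [(hzb.pow_left i).mul_pow, ← pow_mul, mul_comm i, pow_mul, hz2, hb2]; simp
    refine ⟨_, sum_pow_mem_fixV ρ (hpow 0) v, _, sum_pow_mem_fixV ρ (hpow 1) v, ?_⟩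
    rw [smul_eq_sum hzfix hz1 hz2 hzb v, Finset.sum_range_succ, Finset.sum_range_one]
  have hinv : ∀ (i : ℕ) (x : C), fixV ρ (z ^ i * b) ≤ (fixV ρ (z ^ i * b)).comap ((ρ.comp C.subtype) x) :=
    fun i x =>
      fixV_inv (Commute.mul_right (mem_center_iff.1 (pow_mem hzc i) x) (mem_centralizer_singleton_iff.1 x.2))
  have htop : fixV ρ (z ^ 0 * b) ⊔ fixV ρ (z ^ 1 * b) = ⊤ := by
    rw [eq_top_iff]
    intro v _
    obtain ⟨v₀, h0, v₁, h1, h⟩ := hsum v
    rw [← Submodule.smul_mem_iff _ h2F, h]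
    exact Submodule.add_mem_sup h0 h1
  have hdim := Submodule.finrank_sup_add_finrank_inf_eq (fixV ρ (z ^ 0 * b)) (fixV ρ (z ^ 1 * b))
  rw [htop, finrank_top] at hdim
  have d0 := hd 0
  have d1 := hd 1
  obtain ⟨f₁, f₂, c₁, c₂, e1, e2, e3, e4, e5, e6, e7, e8⟩ := genGood_pair
    (ih _ (by omega) (fixV ρ (z ^ 0 * b)) rfl) (ih _ (by omega) (fixV ρ (z ^ 1 * b)) rfl) (hP.to_subgroup C)
    (Representation.subrepresentation (ρ.comp C.subtype) _ (hinv 0))
    (Representation.subrepresentation (ρ.comp C.subtype) _ (hinv 1)) (by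
      intro g e1 e2
      refine Subtype.ext (hρ g ?_)
      ext v
      obtain ⟨v₀, h0, v₁, h1, h⟩ := hsum v
      have a0 : ρ g v₀ = v₀ := congrArg Subtype.val (LinearMap.congr_fun e1 ⟨v₀, h0⟩)
      have a1 : ρ g v₁ = v₁ := congrArg Subtype.val (LinearMap.congr_fun e2 ⟨v₁, h1⟩)
      refine smul_right_injective V h2F ?_
      change ((2 : ℕ) : F) • ρ g v = ((2 : ℕ) : F) • v
      rw [← map_smul, h, map_add, a0, a1])
  rw [Module.natCard_eq_pow_finrank (K := F)] at e5 e6 e7 e8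
  have a1 : finrank F (fixV ρ (z ^ 1 * b)) = finrank F (fixV ρ (z ^ 0 * b)) := by omega
  have a2 : n = finrank F (fixV ρ (z ^ 0 * b)) + finrank F (fixV ρ (z ^ 0 * b)) := by omega
  rw [a1] at e7 e8
  rw [hV, a2, pow_add]
  rcases (hge (finrank F (fixV ρ (z ^ 0 * b))) (by omega)).eq_or_lt with a3 | a3
  · rw [← a3]
    have b1 := e5 a3.symm
    have b2 := e7 a3.symm
    have b3 : Nat.card C * 2 = Nat.card P := by rw [← hCi]; exact C.card_mul_index
    have b4 : Nat.card (frattini P) * (frattini P).index = Nat.card P := (frattini P).card_mul_index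
    have b5 : 1 < Nat.card (frattini P) := by
      rw [one_lt_card_iff_ne_bot]
      intro h
      refine hbnc (mem_center_iff.2 fun g => commutatorElement_eq_one_iff_mul_comm.1 ?_)
      rw [← mem_bot, ← h]; exact commutatorElement_mem_frattini hP g b
    nlinarith
  · have b1 := e6 a3
    have b2 := e8 a3
    have b3 := index_frattini_le_mul hP C
    have b4 : (frattini (P ⧸ C)).index ≤ 2 := (index_le_card' _).trans hCi.le
    nlinarith

theorem index_frattini_le_card_sub_one [Finite F] (hF : Odd (Nat.card F)) [FiniteDimensional F V] [Nontrivial V]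
    [Finite P] (hP : IsPGroup 2 P) (ρ : Representation F P V) (hρ : ∀ g, ρ g = 1 → g = 1) :
    (frattini P).index ≤ Nat.card V - 1 := by
  obtain ⟨h1, h2⟩ := genGood hF _ V rfl P hP ρ hρ
  have h3 : 3 ≤ Nat.card V := by
    have hq : 3 ≤ Nat.card F := by
      have := Finite.one_lt_card (α := F)
      obtain ⟨k, hk⟩ := hF
      omega
    rw [Module.natCard_eq_pow_finrank (K := F)]
    exact hq.trans (Nat.le_self_pow Module.finrank_pos.ne' _)
  have := index_le_card' (frattini P)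
  omega

end CL.Sw
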