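/-
`p`-solvable groups all of whose maximal subgroups are `p`-nilpotent or of prime index have
`p`-length at most two (S4378, S4379).
-/
import Cfsg.Agent.Loc.PSolv
import Cfsg.Agent.Grp.PNilp
import Cfsg.Agent.Grp.Frattini
import Cfsg.Agent.Grp.Hall

open Subgroup Cfsg CL.Grp
open scoped Pointwise

namespace CL.Sw

universe u
variable {G : Type*} [Group G] {G' : Type*} [Group G'] {p : ℕ}

/-- elementwise: `B / A` is a `p`-group -/
def PFac (p : ℕ) (A B : Subgroup G) : Prop := ∀ b ∈ B, ∃ k : ℕ, b ^ p ^ k ∈ A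

/-- elementwise: `B / A` is a `p'`-group -/
def QFac (p : ℕ) (A B : Subgroup G) : Prop := ∀ b ∈ B, ∃ m : ℕ, m.Coprime p ∧ b ^ m ∈ A

theorem PFac.comap {A B : Subgroup G'} (h : PFac p A B) (f : G →* G') :
    PFac p (A.comap f) (B.comap f) := fun b hb => by
  obtain ⟨k, hk⟩ := h _ hb
  exact ⟨k, by simpa using hk⟩

theorem QFac.comap {A B : Subgroup G'} (h : QFac p A B) (f : G →* G') :
    QFac p (A.comap f) (B.comap f) := fun b hb => by
  obtain ⟨k, hk, hk'⟩ := h _ hb
  exact ⟨k, hk, by simpa using hk'⟩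

theorem PFac.inf {A B A' B' : Subgroup G} (h : PFac p A B) (h' : PFac p A' B') :
    PFac p (A ⊓ A') (B ⊓ B') := fun b hb => by
  obtain ⟨k, hk⟩ := h _ hb.1
  obtain ⟨l, hl⟩ := h' _ hb.2
  refine ⟨k + l, ?_, ?_⟩
  · rw [pow_add, pow_mul]; exact pow_mem hk _
  · rw [add_comm, pow_add, pow_mul]; exact pow_mem hl _

theorem QFac.inf {A B A' B' : Subgroup G} (h : QFac p A B) (h' : QFac p A' B') :
    QFac p (A ⊓ A') (B ⊓ B') := fun b hb => by
  obtain ⟨k, hk, hk'⟩ := h _ hb.1
  obtain ⟨l, hl, hl'⟩ := h' _ hb.2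
  refine ⟨k * l, Nat.Coprime.mul_left hk hl, ?_, ?_⟩
  · rw [pow_mul]; exact pow_mem hk' _
  · rw [mul_comm, pow_mul]; exact pow_mem hl' _

theorem PFac.trans {A B C : Subgroup G} (h : PFac p A B) (h' : PFac p B C) : PFac p A C := fun c hc => by
  obtain ⟨k, hk⟩ := h' _ hc
  obtain ⟨l, hl⟩ := h _ hk
  exact ⟨k + l, by rwa [pow_add, pow_mul]⟩

theorem QFac.trans {A B C : Subgroup G} (h : QFac p A B) (h' : QFac p B C) : QFac p A C := fun c hc => by
  obtain ⟨k, hk, hk'⟩ := h' _ hc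
  obtain ⟨l, hl, hl'⟩ := h _ hk'
  exact ⟨k * l, Nat.Coprime.mul_left hk hl, by rwa [pow_mul]⟩

theorem pFac_of_le {A B : Subgroup G} (h : B ≤ A) : PFac p A B := fun b hb => ⟨0, by simpa using h hb⟩

theorem qFac_of_le {A B : Subgroup G} (h : B ≤ A) : QFac p A B := fun b hb =>
  ⟨1, Nat.coprime_one_left _, by simpa using h hb⟩

theorem relIndex_eq_card_map (A B : Subgroup G) [A.Normal] :
    A.relIndex B = Nat.card (B.map (QuotientGroup.mk' A)) :=
  Nat.card_congr (quotientSubgroupOfEquivMap B A).toEquiv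

theorem PFac.relIndex [Finite G] [hp : Fact p.Prime] {A B : Subgroup G} [A.Normal] (h : PFac p A B) :
    ∃ k, A.relIndex B = p ^ k := by
  rw [relIndex_eq_card_map, ← IsPGroup.iff_card]
  rintro ⟨_, b, hb, rfl⟩
  obtain ⟨k, hk⟩ := h b hb
  refine ⟨k, Subtype.ext ?_⟩
  simpa [← QuotientGroup.mk_pow, QuotientGroup.eq_one_iff] using hk

theorem QFac.relIndex [Finite G] [hp : Fact p.Prime] {A B : Subgroup G} [A.Normal] (h : QFac p A B) :
    ¬ p ∣ A.relIndex B := by
  rw [relIndex_eq_card_map]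
  intro hd
  obtain ⟨⟨_, b, hb, rfl⟩, hx⟩ := exists_prime_orderOf_dvd_card' p hd
  obtain ⟨m, hm, hm'⟩ := h b hb
  have : p ∣ m := by
    rw [← hx, orderOf_dvd_iff_pow_eq_one]
    refine Subtype.ext ?_
    simpa [← QuotientGroup.mk_pow, QuotientGroup.eq_one_iff] using hm'
  exact hp.out.one_lt.ne' (Nat.eq_one_of_self_dvd_of_coprime' this hm)
where
  Nat.eq_one_of_self_dvd_of_coprime' {p m : ℕ} (h : p ∣ m) (hm : m.Coprime p) : p = 1 :=
    Nat.Coprime.eq_one_of_dvd hm.symm h

theorem qFac_of_relIndex [Finite G] {A B : Subgroup G} [A.Normal] (h : (A.relIndex B).Coprime p) :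
    QFac p A B := fun b hb => ⟨_, h, by
  have := (A.subgroupOf B).pow_index_mem ⟨b, hb⟩
  simpa [mem_subgroupOf, Subgroup.relIndex] using this⟩

theorem pFac_of_relIndex {A B : Subgroup G} [A.Normal] {k : ℕ} (h : A.relIndex B = p ^ k) :
    PFac p A B := fun b hb => ⟨k, by
  have := (A.subgroupOf B).pow_index_mem ⟨b, hb⟩
  rw [← h]
  simpa [mem_subgroupOf, Subgroup.relIndex] using this⟩

/-- the chain `1 ≤ A ≤ B ≤ C ≤ G` with factors `p'`, `p`, `p'`, `p` -/
def Ch4 (p : ℕ) (G : Type*) [Group G] : Prop :=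
  ∃ A B C : Subgroup G, A.Normal ∧ B.Normal ∧ C.Normal ∧ A ≤ B ∧ B ≤ C ∧
    QFac p ⊥ A ∧ PFac p A B ∧ QFac p B C ∧ PFac p C ⊤

/-- the hypothesis on maximal subgroups -/
def MaxHyp (p : ℕ) (G : Type*) [Group G] : Prop :=
  ∀ M : Subgroup G, IsCoatom M → HasNormalPComplement p M ∨ M.index.Prime

theorem MaxHyp.quotient [Finite G] [Fact p.Prime] (h : MaxHyp p G) (N : Subgroup G) [N.Normal] :
    MaxHyp p (G ⧸ N) := fun M hM => by
  have hs := QuotientGroup.mk'_surjective N
  rcases h _ (Subgroup.isCoatom_comap_of_surjective hs hM) with h1 | h1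
  · exact Or.inl (HasNormalPComplement.of_surjective h1 _
      (MonoidHom.subgroupComap_surjective_of_surjective _ M hs))
  · rw [index_comap_of_surjective _ hs] at h1; exact Or.inr h1

theorem ch4_main [hp : Fact p.Prime] (G : Type u) [Group G] [Finite G] :
    IsPSolvable p G → MaxHyp p G → Ch4 p G := by
  refine induction_on_card (P := fun X _ _ => IsPSolvable p X → MaxHyp p X → Ch4 p X) ?_ G
  intro G _ _ ih hG hM
  rcases subsingleton_or_nontrivial G with hs | hs
  · exact ⟨⊥, ⊥, ⊥, inferInstance, inferInstance, inferInstance, le_rfl, le_rfl, qFac_of_le le_rfl,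
      pFac_of_le le_rfl, qFac_of_le le_rfl, pFac_of_le (by simp [Subsingleton.elim (⊤ : Subgroup G) ⊥])⟩
  have ihq : ∀ (N : Subgroup G) [N.Normal], N ≠ ⊥ → ∃ A B C : Subgroup G, A.Normal ∧ B.Normal ∧ C.Normal ∧
      N ≤ A ∧ A ≤ B ∧ B ≤ C ∧ QFac p N A ∧ PFac p A B ∧ QFac p B C ∧ PFac p C ⊤ := by
    intro N _ hN
    obtain ⟨A, B, C, hA, hB, hC, h1, h2, h3, h4, h5, h6⟩ := ih (G ⧸ N) (card_quotient_lt hN)
      (CL.Loc.isPSolvable_quotient hG N) (hM.quotient N)
    refine ⟨A.comap (QuotientGroup.mk' N), B.comap (QuotientGroup.mk' N), C.comap (QuotientGroup.mk' N),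
      inferInstance, inferInstance, inferInstance, ?_, comap_mono h1, comap_mono h2, ?_, h4.comap _,
      h5.comap _, by simpa using h6.comap (QuotientGroup.mk' N)⟩
    · intro x hx
      have : (QuotientGroup.mk' N x) = 1 := (QuotientGroup.eq_one_iff x).2 hx
      rw [mem_comap, this]; exact one_mem _
    · have := h3.comap (QuotientGroup.mk' N)
      rwa [MonoidHom.comap_bot, QuotientGroup.ker_mk'] at this
  obtain ⟨N, hN⟩ := exists_isMinNormal G
  have := hN.normal
  by_cases huniq : ∃ N', IsMinNormal N' ∧ N ≠ N'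
  · obtain ⟨N', hN', hne⟩ := huniq
    have := hN'.normal
    obtain ⟨A, B, C, hA, hB, hC, -, h1, h2, h3, h4, h5, h6⟩ := ihq N hN.ne_bot
    obtain ⟨A', B', C', hA', hB', hC', -, h1', h2', h3', h4', h5', h6'⟩ := ihq N' hN'.ne_bot
    refine ⟨A ⊓ A', B ⊓ B', C ⊓ C', inferInstance, inferInstance, inferInstance, inf_le_inf h1 h1',
      inf_le_inf h2 h2', ?_, h4.inf h4', h5.inf h5', by simpa using h6.inf h6'⟩
    rw [← hN.inf_eq_bot_of_ne hN' hne]; exact h3.inf h3'
  have hle : ∀ K : Subgroup G, K.Normal → K ≠ ⊥ → N ≤ K := by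
    intro K hK hK'
    obtain ⟨N', hN', hle⟩ := exists_isMinNormal_le K hK'
    by_cases h : N = N'
    · exact h ▸ hle
    · exact absurd ⟨N', hN', h⟩ huniq
  obtain ⟨K, hK, hK0, -, hKc⟩ := (CL.Loc.isPSolvable_iff_below.1 hG).exists_normal top_ne_bot
  have hNc : CL.Loc.PowOrCop p (Nat.card N) := hKc.of_dvd (card_dvd_of_le (hle K hK hK0))
  obtain ⟨A, B, C, hA, hB, hC, h0, h1, h2, h3, h4, h5, h6⟩ := ihq N hN.ne_bot
  rcases hNc with ⟨k, hk⟩ | hc
  swap
  · refine ⟨A, B, C, hA, hB, hC, h1, h2, QFac.trans ?_ h3, h4, h5, h6⟩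
    exact qFac_of_relIndex (by rwa [relIndex_bot_left])
  have hNp : IsPGroup p N := IsPGroup.of_card hk
  have hNP : PFac p ⊥ N := pFac_of_relIndex (by rw [relIndex_bot_left, hk])
  have hab : IsMulCommutative N := (hN.isElementaryAbelian_of_isPGroup hNp).1
  by_cases hF : N ≤ frattini G
  · -- `A = N`
    have hcop : (Nat.card N).Coprime (N.relIndex A) := by
      rw [hk]
      exact Nat.Coprime.pow_left _ ((Nat.Prime.coprime_iff_not_dvd hp.out).2 h3.relIndex)
    obtain ⟨L, hLA, hL, hLN⟩ := hall_exists_compl_in h0 hcop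
    have hLn : N ⊔ normalizer (L : Set G) = ⊤ := by
      rw [eq_top_iff]
      intro g _
      have e1 : (MulAut.conj g • L) ⊔ N = L ⊔ N := by
        rw [hLN, ← Subgroup.Normal.conj_smul_eq_self g N, ← smul_sup, hLN, Subgroup.Normal.conj_smul_eq_self]
      obtain ⟨a, ha, hae⟩ := hall_conj_of_sup_eq_abelian e1 (by rw [hall_card_conj, hL]; exact hcop)
        (by rw [hL]; exact hcop)
      have hag : a * g ∈ normalizer (L : Set G) := by
        rw [← conj_smul_eq_self_iff, map_mul, mul_smul, hae]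
      have haL : a ∈ N ⊔ normalizer (L : Set G) := by
        refine (sup_le ?_ le_sup_left : L ⊔ N ≤ N ⊔ normalizer (L : Set G)) ha
        exact le_normalizer.trans le_sup_right
      have := mul_mem (inv_mem haL) (mem_sup_right hag : a * g ∈ N ⊔ normalizer (L : Set G))
      simpa using this
    have hLn' : L.Normal := normalizer_eq_top_iff.1 (eq_top_of_sup_eq_top_of_le_frattini hF hLn)
    have hL0 : L = ⊥ := by
      by_contra hne
      have h1 := card_dvd_of_le (hle L hLn' hne)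
      rw [hL] at h1
      exact hN.ne_bot (card_eq_one.1 (Nat.Coprime.eq_one_of_dvd hcop h1))
    have hAN : A = N := by rw [← hLN, hL0, bot_sup_eq]
    exact ⟨⊥, B, C, inferInstance, hB, hC, bot_le, h2, qFac_of_le le_rfl, hNP.trans (hAN ▸ h4), h5, h6⟩
  obtain ⟨M, hMc, hNM⟩ := exists_isCoatom_not_le hF
  have hcomp := hN.isComplement'_of_isCoatom hab hMc hNM
  rcases hM M hMc with hnp | hpr
  · have hq : HasNormalPComplement p (G ⧸ N) := by
      refine HasNormalPComplement.of_surjective hnp ((QuotientGroup.mk' N).comp M.subtype) ?_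
      intro x
      obtain ⟨g, rfl⟩ := QuotientGroup.mk'_surjective N x
      obtain ⟨⟨n, m⟩, h, -⟩ := hcomp.existsUnique g
      refine ⟨m, ?_⟩
      have hn : QuotientGroup.mk' N (n : G) = 1 := (QuotientGroup.eq_one_iff _).2 n.2
      simp only at h
      rw [← h, map_mul, hn, one_mul]; rfl
    obtain ⟨K, hK, hK1, k', hK2⟩ := hasNormalPComplement_iff_exists_normal.1 hq
    refine ⟨⊥, N, K.comap (QuotientGroup.mk' N), inferInstance, inferInstance, inferInstance, bot_le, ?_,
      qFac_of_le le_rfl, hNP, ?_, ?_⟩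
    · intro x hx
      have : (QuotientGroup.mk' N x) = 1 := (QuotientGroup.eq_one_iff x).2 hx
      rw [mem_comap, this]; exact one_mem _
    · have : QFac p ⊥ K := qFac_of_relIndex (by rwa [relIndex_bot_left])
      have := this.comap (QuotientGroup.mk' N)
      rwa [MonoidHom.comap_bot, QuotientGroup.ker_mk'] at this
    · have : PFac p K ⊤ := pFac_of_relIndex (by rw [relIndex_top_right, hK2])
      simpa using this.comap (QuotientGroup.mk' N)
  · have hcard : Nat.card N = p := by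
      have h1 : Nat.card N = M.index := hcomp.index_eq_card.symm
      rw [← h1, hk] at hpr
      rw [hk, hpr.eq_one_of_pow, pow_one]
    have hcore : M.normalCore = ⊥ := by
      by_contra hne
      exact hNM ((hle _ inferInstance hne).trans M.normalCore_le)
    have hCN : N = centralizer (N : Set G) :=
      eq_of_sup_eq_top_of_inf_eq_bot (le_centralizer N) hcomp.sup_eq_top
        (centralizer_inf_eq_bot_of_normalCore_eq_bot hcore hcomp.sup_eq_top)
    refine ⟨⊥, N, ⊤, inferInstance, inferInstance, inferInstance, bot_le, le_top, qFac_of_le le_rfl, hNP,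
      fun g _ => ⟨p - 1, ?_, ?_⟩, pFac_of_le le_rfl⟩
    · exact (Nat.coprime_self_sub_left hp.out.one_le).2 (Nat.coprime_one_left _)
    · have : IsCyclic N := isCyclic_of_prime_card hcard
      have hA : Nat.card (MulAut N) = p - 1 := by
        rw [IsCyclic.card_mulAut, hcard, Nat.totient_prime hp.out]
      have h1 : (MulAut.conjNormal (H := N) g) ^ (p - 1) = 1 := by rw [← hA]; exact pow_card_eq_one'
      rw [← map_pow] at h1
      rw [hCN, mem_centralizer_iff]
      intro n hn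
      have := congrArg (fun f : MulAut N => ((f ⟨n, hn⟩ : N) : G)) h1
      simp only [MulAut.conjNormal_apply, MulAut.one_apply] at this
      exact (mul_inv_eq_iff_eq_mul.1 this).symm

theorem ch4_of_max [Finite G] [hp : Fact p.Prime] (hG : IsPSolvable p G)
    (hmax : ∀ M : Subgroup G, IsCoatom M → (∃ K : Subgroup ↥M, K.Normal ∧ ¬ p ∣ Nat.card K ∧
      ∃ k : ℕ, K.index = p ^ k) ∨ (M.index).Prime) :
    ∃ A B C : Subgroup G, A.Normal ∧ B.Normal ∧ C.Normal ∧ A ≤ B ∧ B ≤ C ∧ ¬ p ∣ Nat.card A ∧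
      (∃ k : ℕ, A.relIndex B = p ^ k) ∧ ¬ p ∣ B.relIndex C ∧ ∃ k : ℕ, C.index = p ^ k := by
  obtain ⟨A, B, C, hA, hB, hC, h1, h2, h3, h4, h5, h6⟩ := ch4_main G hG (fun M hM => by
    rcases hmax M hM with ⟨K, hK, h1, h2⟩ | h
    · exact Or.inl (hasNormalPComplement_iff_exists_normal.2 ⟨K, hK,
        ((Nat.Prime.coprime_iff_not_dvd hp.out).2 h1).symm, h2⟩)
    · exact Or.inr h)
  refine ⟨A, B, C, hA, hB, hC, h1, h2, ?_, h4.relIndex, h5.relIndex, ?_⟩
  · simpa using h3.relIndex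
  · simpa using h6.relIndex

end CL.Sw
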